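import Cfsg.Agent.H295.FourOutAbs
import Cfsg.Agent.H442.OutCyc
import Cfsg.Agent.H296.Link

/-!
# Outer involutions of the Chevalley groups of characteristic two (helper295)

* `inner_of_two` : commuting `x, y` with squares one whose classes lie in the diagonal-field part of `Out`: one of
  `x, y, x * y` is inner;
* `field_mem` : field type lies in the diagonal-field part; `graph_not_mem` : graph type does not.
-/

set_option autoImplicit false

namespace Cfsg.Agent.H295.FourOutChev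

open Subgroup Cfsg Cfsg.Lie
open Cfsg.Agent.ChevalleyStructure Cfsg.Agent.ChevalleyStructure.Elts
open Cfsg.Agent.H79.OutChev Cfsg.Agent.H79.FieldAuts Cfsg.Agent.H79.DiagAuts
open Cfsg.Agent.H442.OutCyc
open Cfsg.Agent.H829.FieldTwo Cfsg.Agent.CpAut.RgdSub Cfsg.Agent.CpAut.RgdUntw Cfsg.Agent.H79.SimpleGen
open Cfsg.Agent.Nodes.RGDChev Cfsg.Agent.KFacts.RgdChevCoord

universe u

/-- the class of an automorphism in `Out` -/
noncomputable abbrev cl {X : Type*} [Group X] (x : MulAut X) : Out X := QuotientGroup.mk' (Inn X) x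

theorem cl_eq_one {X : Type*} [Group X] {x : MulAut X} (h : cl x = 1) : ∃ g, x = MulAut.conj g := by
  have h1 : x ∈ Inn X := (QuotientGroup.eq_one_iff x).1 h
  obtain ⟨g, hg⟩ := h1
  exact ⟨g, hg.symm⟩

section

variable {D : ChevalleyDatum} (hD : InList D) (F : Type u) [Field F] [Finite F] [CharP F 2]

omit [Finite F] [CharP F 2] in
theorem isD_pow {c : Fin D.rank → Fˣ} {α : MulAut ↥(D.group F)} (h : IsD hD c α) (n : ℕ) :
    IsD hD (c ^ n) (α ^ n) := by
  induction n with
  | zero => rw [pow_zero, pow_zero]; exact IsD.one hD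
  | succ n ih => rw [pow_succ, pow_succ]; exact ih.mul h

theorem odd_card_units : Odd (Nat.card Fˣ) := by
  have : Fintype F := Fintype.ofFinite F
  obtain ⟨n, hn, hcard⟩ := FiniteField.card F 2
  rw [Nat.card_units, Nat.card_eq_fintype_card, hcard]
  have h1 : Even (2 ^ (n : ℕ)) := (Nat.even_pow).2 ⟨even_two, n.ne_zero⟩
  exact Nat.Even.sub_odd (Nat.one_le_two_pow) h1 odd_one

omit [Finite F] [CharP F 2] in
theorem pow_DB : ∀ d ∈ DB hD F, d ^ Nat.card Fˣ = 1 := by
  rintro _ ⟨α, ⟨c, hc⟩, rfl⟩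
  have h1 := isD_pow hD F hc (Nat.card Fˣ)
  have h2 : c ^ Nat.card Fˣ = 1 := by
    funext i
    rw [Pi.pow_apply, pow_card_eq_one', Pi.one_apply]
  rw [h2] at h1
  rw [← map_pow, h1.unique (IsD.one hD), map_one]

/-- **Two commuting involutions in the diagonal-field part.** -/
theorem inner_of_two {x y : MulAut ↥(D.group F)} (hx : cl x ∈ DB hD F ⊔ FB hD F)
    (hy : cl y ∈ DB hD F ⊔ FB hD F) (hxx : x * x = 1) (hyy : y * y = 1) (hxy : x * y = y * x) :
    (∃ g, x = MulAut.conj g) ∨ (∃ g, y = MulAut.conj g) ∨ (∃ g, x * y = MulAut.conj g) := by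
  obtain ⟨h1, -, h3, -, -⟩ := structure_out hD F
  have : Finite (Out ↥(D.group F)) := inferInstance
  have h := FourOutAbs.two (x := cl x) (y := cl y) h3 (odd_card_units F) (pow_DB hD F) hx hy
    (by rw [← map_mul, hxx, map_one]) (by rw [← map_mul, hyy, map_one]) (by rw [← map_mul, hxy, map_mul])
  rcases h with h | h | h
  · exact Or.inl (cl_eq_one h)
  · exact Or.inr (Or.inl (cl_eq_one h))
  · rw [← map_mul] at h
    exact Or.inr (Or.inr (cl_eq_one h))

end

section

variable {D : ChevalleyDatum} {l : ℕ} {M : CoxeterMatrix (Fin l)} (hp : IsType D l M) {K : Type u} [Field K]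

include hp in
theorem fld_eq (τ : K ≃+* K) : fld D τ = fieldHom hp.inList K τ := by
  have key : ∀ r < D.nroots, ∀ t : K, fld D τ (xS hp.inList r t) = xS hp.inList r (τ t) := by
    intro r hr t
    rw [← Cfsg.Agent.H296.Link.xc_eq hp hr, fld_xc hp τ hr, Cfsg.Agent.H296.Link.xc_eq hp hr]
  apply eq_fieldFun
  · intro i hi t
    exact key _ (simple_lt hp.inList hi) t
  · intro i hi t
    exact key _ (neg_simple_lt hp.inList hi) t

include hp in
/-- **Field type.** -/
theorem field_mem [Finite K] {x : MulAut ↥(D.group K)} (h : FieldType D K x) :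
    cl x ∈ DB hp.inList K ⊔ FB hp.inList K := by
  obtain ⟨τ, -, -, ⟨e, he⟩, -⟩ := h
  have hN : (DB hp.inList K ⊔ FB hp.inList K).Normal := (structure_out hp.inList K).2.2.2.1
  have h1 : cl (fld D τ) ∈ DB hp.inList K ⊔ FB hp.inList K :=
    mem_sup_right ⟨fld D τ, ⟨τ, (fld_eq hp τ).symm⟩, rfl⟩
  have h2 := hN.conj_mem _ h1 (cl e)
  rwa [← map_mul, ← map_inv, ← map_mul, ← he] at h2

/-- **Graph type.** -/
theorem graph_not_mem [Finite K] [CharP K 2] {x : MulAut ↥(D.group K)} (h : GraphType hp K x) :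
    cl x ∉ DB hp.inList K ⊔ FB hp.inList K := by
  intro hx
  have hN : (DB hp.inList K).Normal := (structure_out hp.inList K).1
  obtain ⟨_, ⟨α, ⟨c, hc⟩, rfl⟩, _, ⟨β, ⟨σ, rfl⟩, rfl⟩, h1⟩ := mem_sup_of_normal_left.1 hx
  rw [← map_mul] at h1
  have h2 : x⁻¹ * (α * fieldHom hp.inList K σ) ∈ Inn ↥(D.group K) := by
    have h3 := QuotientGroup.eq.1 (h1.symm : ((x : MulAut ↥(D.group K)) : Out ↥(D.group K)) =
      ((α * fieldHom hp.inList K σ : MulAut ↥(D.group K)) : Out ↥(D.group K)))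
    exact h3
  have h3 : x * (α * fieldHom hp.inList K σ)⁻¹ ∈ Inn ↥(D.group K) := by
    have hN' : (Inn ↥(D.group K)).Normal := inferInstance
    have h4 := hN'.conj_mem _ (inv_mem h2) x
    have h5 : x * (x⁻¹ * (α * fieldHom hp.inList K σ))⁻¹ * x⁻¹ = x * (α * fieldHom hp.inList K σ)⁻¹ := by group
    rwa [h5] at h4
  obtain ⟨y, hy⟩ := h3
  have h4 : x = MulAut.conj y * (α * fieldHom hp.inList K σ) := by
    rw [hy]; group
  refine Cfsg.Agent.H296.Link.not_graph hp h ((diagFacts hp.inList K).isDiag c α hc)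
    ((isFieldAut_iff hp.inList _).2 ⟨σ, rfl⟩) (y := y) ?_
  intro a
  rw [h4]
  rfl

/-- the diagonal-field part has index at most two, `D ≠ D₄` -/
theorem index_DF (hD : InList D) (hD' : D ∈ [chevG2, chevB2, chevF4, chevE6, chevE7, chevE8]) (F : Type u) [Field F]
    [Finite F] : (DB hD F ⊔ FB hD F).index = 1 ∨ (DB hD F ⊔ FB hD F).index = 2 := by
  have hdata := data (diagFacts hD F) (fun θ => H79.Steinberg.exists_fac hD θ)
  have key : ∃ g₀ : MulAut ↥(D.group F), ∀ g ∈ {g : MulAut ↥(D.group F) | D.IsGraphAut g}, g = 1 ∨ g = g₀ := by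
    by_cases hex : ∃ g₀ : MulAut ↥(D.group F), D.IsGraphAut g₀ ∧ g₀ ≠ 1
    · obtain ⟨g₀, hg₀, hne⟩ := hex
      refine ⟨g₀, fun g hg => ?_⟩
      by_cases hg1 : g = 1
      · exact Or.inl hg1
      · right
        obtain ⟨π, hπs, hπ⟩ := isGraphAut_isGr hD hg
        obtain ⟨ρ, hρs, hρ⟩ := isGraphAut_isGr hD hg₀
        have h1 : π ≠ 1 := by
          rintro rfl
          exact hg1 (isGr_one hπ)
        have h2 : ρ ≠ 1 := by
          rintro rfl
          exact hne (isGr_one hρ)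
        have h3 : π = ρ := H79.DiagSymm.eq_of_ne_one hD' hπs hρs h1 h2
        subst h3
        exact hπ.unique hρ
    · refine ⟨1, fun g hg => ?_⟩
      by_contra hne
      push Not at hne
      exact hex ⟨g, hg, hne.1⟩
  obtain ⟨g₀, hg₀⟩ := key
  rw [DB_eq, FB_eq]
  exact H79.OutAbs.index_of_two hdata g₀ hg₀

end

end Cfsg.Agent.H295.FourOutChev
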