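import Cfsg.Agent.H254.FxTools

/-!
# `A₈` has no odd TI subgroup `D` with `OddTI 4 D` (row of S3002; helper295)
-/

set_option autoImplicit false
set_option linter.style.haveILetI false

namespace Cfsg.Agent.H295.Alt8TI

open Subgroup Equiv Equiv.Perm Cfsg.Agent.H254.Fx

/-- the criterion `noTI_of` with a direct proof of `3 ∤ |D|` -/
theorem noTI_of' {G : Type*} [Group G] {k : ℕ} [Finite G] (hb : ∀ D : Subgroup G, OddTI k D → ¬ 3 ∣ Nat.card D)
    (hk : ∀ r : ℕ, r.Prime → 5 ≤ r → r ∣ Nat.card G → Kill k r G) : NoTI k G := by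
  intro D h
  have h3 : ¬ 3 ∣ Nat.card D := hb D h
  have hne : Nat.card D ≠ 1 := by
    intro h1
    exact h.ne (Subgroup.eq_bot_of_card_eq D h1)
  have h5 : ∀ s : ℕ, s.Prime → s ∣ Nat.card D → 5 ≤ s := by
    intro s hs hsd
    by_contra hlt
    have h12 : s = 2 ∨ s = 3 ∨ s = 4 := by have := hs.two_le; omega
    rcases h12 with h12 | h12 | h12
    · have h4 := h.odd
      rw [← Nat.not_even_iff_odd, even_iff_two_dvd] at h4
      exact h4 (h12 ▸ hsd)
    · exact h3 (h12 ▸ hsd)
    · rw [h12] at hs; revert hs; decide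
  have hmin := Nat.minFac_prime hne
  refine h.not_kill h3 hmin (h5 _ hmin (Nat.minFac_dvd _)) (Nat.minFac_dvd _) ?_
    (hk _ hmin (h5 _ hmin (Nat.minFac_dvd _)) ((Nat.minFac_dvd _).trans (card_subgroup_dvd_card D)))
  intro t ht _ htd
  exact Nat.minFac_le_of_dvd ht.two_le htd

abbrev A8 : Type := ↥(alternatingGroup (Fin 8))

theorem card_A8 : Nat.card A8 = 20160 := by
  have h : 2 * Nat.card A8 = Nat.card (Perm (Fin 8)) := two_mul_nat_card_alternatingGroup (α := Fin 8)
  rw [Nat.card_perm, Nat.card_fin] at h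
  have h8 : Nat.factorial 8 = 40320 := by decide
  rw [h8] at h
  omega

/-- `(0 1 2)` -/
def c3 : A8 := ⟨swap 0 1 * swap 1 2, by rw [mem_alternatingGroup]; decide +kernel⟩

/-- `(0 1 2)(3 4 5)` -/
def x0 : A8 := ⟨swap 0 1 * swap 1 2 * (swap 3 4 * swap 4 5), by rw [mem_alternatingGroup]; decide +kernel⟩

/-- `(0 1)(3 4)`-like element inverting `x0` and `c3` -/
def w0 : A8 := ⟨swap 0 1 * swap 3 4, by rw [mem_alternatingGroup]; decide +kernel⟩

theorem c3_three : orderOf c3 = 3 := by
  apply orderOf_eq_prime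
  · decide +kernel
  · decide +kernel

theorem x0_comm : c3 * x0 = x0 * c3 := by decide +kernel

theorem w0_x0 : w0 * x0 * w0⁻¹ = x0 ^ 2 := by decide +kernel

theorem w0_c3 : w0 * c3 * w0⁻¹ * c3 = 1 := by decide +kernel

/-! ### Three-cycles are bad -/

/-- `(3 4)(5 6)` -/
def va : A8 := ⟨swap 3 4 * swap 5 6, by rw [mem_alternatingGroup]; decide +kernel⟩

/-- `(3 5)(4 6)` -/
def vb : A8 := ⟨swap 3 5 * swap 4 6, by rw [mem_alternatingGroup]; decide +kernel⟩

/-- the four-group on `{3, 4, 5, 6}` -/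
def V : Subgroup A8 where
  carrier := {g | g = 1 ∨ g = va ∨ g = vb ∨ g = va * vb}
  one_mem' := Or.inl rfl
  mul_mem' {a b} ha hb := by
    have haa : va * va = 1 := by decide +kernel
    have hbb : vb * vb = 1 := by decide +kernel
    have hab : vb * va = va * vb := by decide +kernel
    rcases ha with rfl | rfl | rfl | rfl <;> rcases hb with rfl | rfl | rfl | rfl
    · exact Or.inl (one_mul _)
    · exact Or.inr (Or.inl (one_mul _))
    · exact Or.inr (Or.inr (Or.inl (one_mul _)))
    · exact Or.inr (Or.inr (Or.inr (one_mul _)))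
    · exact Or.inr (Or.inl (mul_one _))
    · exact Or.inl haa
    · exact Or.inr (Or.inr (Or.inr rfl))
    · exact Or.inr (Or.inr (Or.inl (by rw [← mul_assoc, haa, one_mul])))
    · exact Or.inr (Or.inr (Or.inl (mul_one _)))
    · exact Or.inr (Or.inr (Or.inr hab))
    · exact Or.inl hbb
    · exact Or.inr (Or.inl (by rw [← mul_assoc, hab, mul_assoc, hbb, mul_one]))
    · exact Or.inr (Or.inr (Or.inr (mul_one _)))
    · exact Or.inr (Or.inr (Or.inl (by rw [mul_assoc, hab, ← mul_assoc, haa, one_mul])))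
    · exact Or.inr (Or.inl (by rw [mul_assoc, hbb, mul_one]))
    · exact Or.inl (by rw [mul_assoc, ← mul_assoc vb, hab, mul_assoc va, hbb, mul_one, haa])
  inv_mem' {a} ha := by
    have h1 : va⁻¹ = va := by decide +kernel
    have h2 : vb⁻¹ = vb := by decide +kernel
    have h3 : (va * vb)⁻¹ = va * vb := by decide +kernel
    rcases ha with rfl | rfl | rfl | rfl
    · exact Or.inl inv_one
    · exact Or.inr (Or.inl h1)
    · exact Or.inr (Or.inr (Or.inl h2))
    · exact Or.inr (Or.inr (Or.inr h3))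

theorem card_V : Nat.card V = 4 := by
  have h1 : (V : Set A8) = (({1, va, vb, va * vb} : Finset A8) : Set A8) := by
    ext g
    simp only [Finset.coe_insert, Finset.coe_singleton, Set.mem_insert_iff, Set.mem_singleton_iff]
    rfl
  have h2 : ({1, va, vb, va * vb} : Finset A8).card = 4 := by decide +kernel
  rw [← SetLike.coe_sort_coe, h1, Nat.card_coe_set_eq, Set.ncard_coe_finset, h2]

theorem bad_c3 : Bad c3 := by
  have hu : w0 * c3 * w0⁻¹ = c3 ^ 2 := by decide +kernel
  refine bad_of_two Nat.prime_three c3_three hu ?_ ?_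
  · have : orderOf ((2 : ℕ) : ZMod 3) = 2 := orderOf_eq_prime (by decide) (by decide)
    rw [this]
  · rw [← card_V]
    apply card_dvd_of_le
    intro g hg
    rw [mem_centralizer_singleton_iff]
    rcases hg with rfl | rfl | rfl | rfl
    · rw [one_mul, mul_one]
    · decide +kernel
    · decide +kernel
    · decide +kernel

/-! ### Conjugation by odd permutations -/

/-- conjugation with an arbitrary permutation -/
theorem conj_A8 (g : Perm (Fin 8)) : ∃ e : A8 ≃* A8, ∀ x : A8, ((e x : A8) : Perm (Fin 8)) = g * x * g⁻¹ :=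
  ⟨MulAut.conjNormal g, fun x => MulAut.conjNormal_apply g x⟩

theorem bad_of_equiv {G G' : Type*} [Group G] [Group G'] (e : G ≃* G') {x : G} (h : Bad x) : Bad (e x) := by
  obtain ⟨Y, hY, h1⟩ := h
  have hz : zpowers (e x) = (zpowers x).map e.toMonoidHom := by
    rw [MonoidHom.map_zpowers]; rfl
  refine ⟨Y.map e.toMonoidHom, ?_, ?_⟩
  · rintro _ ⟨y, hy, rfl⟩
    rw [hz, mem_normalizer_map_iff]
    change e.symm (e y) ∈ _
    rw [e.symm_apply_apply]
    exact hY hy
  · rw [card_map_eq]
    rcases h1 with ⟨h1, h2⟩ | h1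
    · left
      refine ⟨?_, h2⟩
      rw [← Subgroup.map_commutator, h1]
    · exact Or.inr h1

theorem cycleType_three {d : A8} (hd : orderOf d = 3) :
    (d : Perm (Fin 8)).cycleType = {3} ∨ (d : Perm (Fin 8)).cycleType = {3, 3} := by
  have h1 : orderOf (d : Perm (Fin 8)) = 3 := by rw [Subgroup.orderOf_coe]; exact hd
  obtain ⟨n, hn⟩ := cycleType_prime_order (σ := (d : Perm (Fin 8))) (by rw [h1]; exact Nat.prime_three)
  rw [h1] at hn
  have h2 := sum_cycleType (d : Perm (Fin 8))
  have h3 : (d : Perm (Fin 8)).support.card ≤ 8 := by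
    have := Finset.card_le_univ (d : Perm (Fin 8)).support
    simpa using this
  rw [hn, Multiset.sum_replicate, smul_eq_mul] at h2
  have h4 : n = 0 ∨ n = 1 := by omega
  rcases h4 with rfl | rfl
  · left; rw [hn]; rfl
  · right; rw [hn]; rfl

theorem cycleType_c3 : (c3 : Perm (Fin 8)).cycleType = {3} := by
  rcases cycleType_three c3_three with h | h
  · exact h
  · exfalso
    have h2 := sum_cycleType (c3 : Perm (Fin 8))
    rw [h] at h2
    have h3 : (c3 : Perm (Fin 8)).support.card = 3 := by decide +kernel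
    rw [h3] at h2
    exact absurd h2 (by decide)

theorem cycleType_x0 : (x0 : Perm (Fin 8)).cycleType = {3, 3} := by
  have hx : orderOf x0 = 3 := orderOf_eq_prime (by decide +kernel) (by decide +kernel)
  rcases cycleType_three hx with h | h
  · exfalso
    have h2 := sum_cycleType (x0 : Perm (Fin 8))
    rw [h] at h2
    have h3 : (x0 : Perm (Fin 8)).support.card = 6 := by decide +kernel
    rw [h3] at h2
    exact absurd h2 (by decide)
  · exact h

theorem bad_of_cycleType {d : A8} (hd : (d : Perm (Fin 8)).cycleType = {3}) : Bad d := by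
  have h1 : IsConj (c3 : Perm (Fin 8)) d := by rw [isConj_iff_cycleType_eq, cycleType_c3, hd]
  obtain ⟨g, hg⟩ := isConj_iff.1 h1
  obtain ⟨e, he⟩ := conj_A8 g
  have h2 : e c3 = d := Subtype.ext (by rw [he, hg])
  rw [← h2]
  exact bad_of_equiv e bad_c3

/-- **`3 ∤ |D|`** -/
theorem not_three {D : Subgroup A8} (h : OddTI 4 D) : ¬ 3 ∣ Nat.card D := by
  intro h3
  haveI : Fact (Nat.Prime 3) := ⟨Nat.prime_three⟩
  have hbad : ∀ d ∈ D, orderOf d = 3 → (d : Perm (Fin 8)).cycleType = {3, 3} := by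
    intro d hd hd3
    rcases cycleType_three hd3 with h1 | h1
    · exfalso
      refine h.not_bad hd ?_ (bad_of_cycleType h1)
      rintro rfl
      rw [orderOf_one] at hd3
      omega
    · exact h1
  obtain ⟨d, hd⟩ := exists_prime_orderOf_dvd_card' 3 h3
  have hd' : orderOf (d : A8) = 3 := by rw [Subgroup.orderOf_coe]; exact hd
  have h1 : IsConj ((d : A8) : Perm (Fin 8)) x0 := by
    rw [isConj_iff_cycleType_eq, cycleType_x0, hbad d d.2 hd']
  obtain ⟨g, hg⟩ := isConj_iff.1 h1
  obtain ⟨e, he⟩ := conj_A8 g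
  have h2 : e d = x0 := Subtype.ext (by rw [he, hg])
  have hE := h.congr e
  have hx : x0 ∈ D.map e.toMonoidHom := ⟨d, d.2, h2⟩
  have hx1 : x0 ≠ 1 := by decide +kernel
  have hy : c3 ∈ D.map e.toMonoidHom := by
    refine hE.noinv c3 (hE.cent hx hx1 x0_comm) w0 (hE.norm_pow hx hx1 w0_x0) ?_ ?_
    · rw [← c3_three, pow_orderOf_eq_one]; exact one_mem _
    · rw [w0_c3]; exact one_mem _
  exact hE.not_bad hy (by decide +kernel) bad_c3

/-! ### The prime 5 -/

/-- `(0 1 2 3 4)` -/
def x5 : A8 := ⟨swap 0 1 * swap 1 2 * swap 2 3 * swap 3 4, by rw [mem_alternatingGroup]; decide +kernel⟩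

/-- acts as `i ↦ 2 i` on `{0, ..., 4}` and as `(5 6)` -/
def u5 : A8 := ⟨swap 1 2 * swap 2 4 * swap 4 3 * swap 5 6, by rw [mem_alternatingGroup]; decide +kernel⟩

/-- `(5 6 7)` -/
def z5 : A8 := ⟨swap 5 6 * swap 6 7, by rw [mem_alternatingGroup]; decide +kernel⟩

theorem kill_five : Kill 4 5 A8 := by
  have hx : orderOf x5 = 5 := by
    haveI : Fact (Nat.Prime 5) := ⟨Nat.prime_five⟩
    exact orderOf_eq_prime (by decide +kernel) (by decide +kernel)
  have hu : u5 * x5 * u5⁻¹ = x5 ^ 2 := by decide +kernel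
  have hz : z5 * x5 = x5 * z5 := by decide +kernel
  refine Or.inl ⟨x5, hx, Or.inr (Or.inr (Or.inl ⟨u5, mem_normalizer_of_conj hu, z5, mem_normalizer_of_comm hz,
    Or.inl ?_, Or.inl ?_, ?_⟩))⟩
  · have : orderOf (u5 ^ 2) = 2 := orderOf_eq_prime (by decide +kernel) (by decide +kernel)
    rw [this]
  · by_contra hcon
    have h1 : (u5 ^ 3) ^ 4 = 1 := by decide +kernel
    have h2 : orderOf (u5 ^ 3) ∣ 4 := orderOf_dvd_of_pow_eq_one h1
    have h3 : orderOf (u5 ^ 3) = 1 := by
      have h4 : orderOf (u5 ^ 3) ∣ 2 ^ 2 := h2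
      obtain ⟨k, hk, hk'⟩ := (Nat.dvd_prime_pow Nat.prime_two).1 h4
      rcases Nat.eq_zero_or_pos k with rfl | hpos
      · exact hk'
      · exact absurd (hk' ▸ dvd_pow_self 2 hpos.ne') hcon
    rw [orderOf_eq_one_iff] at h3
    exact absurd h3 (by decide +kernel)
  · haveI : Fact (Nat.Prime 3) := ⟨Nat.prime_three⟩
    exact orderOf_eq_prime (by decide +kernel) (by decide +kernel)

/-! ### The prime 7 -/

/-- `(0 1 2 3 4 5 6)` -/
def p7 : Perm (Fin 8) := List.formPerm [0, 1, 2, 3, 4, 5, 6]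

theorem p7_type : p7.cycleType = {7} := by
  have h1 : p7.IsCycle := List.isCycle_formPerm (by decide) (by decide)
  rw [h1.cycleType]
  have h2 : p7.support.card = 7 := by decide +kernel
  rw [h2]

def x7 : A8 := ⟨p7, by rw [mem_alternatingGroup]; decide +kernel⟩

theorem card_cent : Nat.card (centralizer ({x7} : Set A8)) ∣ 7 := by
  have h1 : Nat.card (centralizer ({p7} : Set (Perm (Fin 8)))) = 7 := by
    rw [nat_card_centralizer, p7_type]
    decide
  rw [← h1]
  refine Subgroup.card_dvd_of_injective (((alternatingGroup (Fin 8)).subtype.comp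
    (centralizer ({x7} : Set A8)).subtype).codRestrict _ (fun y => ?_)) ?_
  · rw [mem_centralizer_singleton_iff]
    have := mem_centralizer_singleton_iff.1 y.2
    exact congrArg Subtype.val this
  · intro a b hab
    apply Subtype.ext
    apply Subtype.ext
    exact congrArg (fun z : centralizer ({p7} : Set (Perm (Fin 8))) => (z : Perm (Fin 8))) hab

theorem kill_seven : Kill 4 7 A8 := by
  haveI : Fact (Nat.Prime 7) := ⟨by norm_num⟩
  have hx : orderOf x7 = 7 := orderOf_eq_prime (by decide +kernel) (by decide +kernel)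
  have hp : IsPGroup 7 (zpowers x7) := IsPGroup.of_card (n := 1) (by rw [Nat.card_zpowers, hx, pow_one])
  obtain ⟨P, hP⟩ := hp.exists_le_sylow
  have hcP : Nat.card P = 7 := by
    obtain ⟨k, hk⟩ := IsPGroup.iff_card.1 P.isPGroup'
    have h1 : 7 ∣ Nat.card P := by
      have := card_dvd_of_le hP
      rwa [Nat.card_zpowers, hx] at this
    have h2 : Nat.card P ∣ 20160 := card_A8 ▸ card_subgroup_dvd_card _
    rcases Nat.lt_or_ge k 2 with h3 | h3
    · interval_cases k
      · rw [hk] at h1
        exact absurd h1 (by decide)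
      · rw [hk, pow_one]
    · exfalso
      have h4 : 7 ^ 2 ∣ 20160 := (pow_dvd_pow 7 h3).trans (hk ▸ h2)
      exact absurd h4 (by decide)
  have hPx : (P : Subgroup A8) = zpowers x7 := by
    symm
    apply Subgroup.eq_of_le_of_card_ge hP
    rw [Nat.card_zpowers, hx]
    exact hcP.le
  right
  refine ⟨P, ?_⟩
  rw [hPx]
  have hcyc : Nat.card (MulAut (zpowers x7)) = 6 := by
    rw [IsCyclic.card_mulAut, Nat.card_zpowers, hx]
    decide
  have hdvd : Nat.card (normalizer (zpowers x7 : Set A8)) ∣ 7 * 6 := by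
    rw [← Subgroup.card_mul_index (normalizerMonoidHom (zpowers x7)).ker]
    apply mul_dvd_mul
    · rw [normalizerMonoidHom_ker]
      refine dvd_trans ?_ card_cent
      refine Subgroup.card_dvd_of_injective (((normalizer (zpowers x7 : Set A8)).subtype.comp
        ((centralizer (zpowers x7 : Set A8)).subgroupOf (normalizer (zpowers x7 : Set A8))).subtype).codRestrict _
          (fun y => ?_)) ?_
      · rw [mem_centralizer_singleton_iff]
        exact (mem_centralizer_iff.1 (mem_subgroupOf.1 y.2) x7 (mem_zpowers x7)).symm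
      · intro a b hab
        apply Subtype.ext
        apply Subtype.ext
        exact congrArg (fun z : centralizer ({x7} : Set A8) => (z : A8)) hab
    · rw [Subgroup.index_ker, ← hcyc]
      exact card_subgroup_dvd_card _
  intro h4
  exact absurd (h4.trans hdvd) (by decide)

/-- **row of S3002** -/
theorem noTI4_alt8 : NoTI 4 (alternatingGroup (Fin 8)) := by
  refine noTI_of' (fun D h => not_three h) ?_
  intro r hr h5 hd
  rw [card_A8] at hd
  have h1 : r ∣ 2 ^ 6 * 3 ^ 2 * 5 * 7 := by
    have : (20160 : ℕ) = 2 ^ 6 * 3 ^ 2 * 5 * 7 := by norm_num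
    rwa [this] at hd
  have h2 : r = 5 ∨ r = 7 := by
    rcases (Nat.Prime.dvd_mul hr).1 h1 with h1 | h1
    · rcases (Nat.Prime.dvd_mul hr).1 h1 with h1 | h1
      · rcases (Nat.Prime.dvd_mul hr).1 h1 with h1 | h1
        · have := Nat.le_of_dvd (by norm_num) (hr.dvd_of_dvd_pow h1)
          omega
        · have := Nat.le_of_dvd (by norm_num) (hr.dvd_of_dvd_pow h1)
          omega
      · exact Or.inl ((Nat.prime_dvd_prime_iff_eq hr Nat.prime_five).1 h1)
    · exact Or.inr ((Nat.prime_dvd_prime_iff_eq hr (by norm_num)).1 h1)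
  rcases h2 with rfl | rfl
  · exact kill_five
  · exact kill_seven

end Cfsg.Agent.H295.Alt8TI
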