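import Cfsg.Agent.H79.OutAbs

/-!
# Two commuting involutions in an extension of inner by odd by cyclic (helper295)
-/

set_option autoImplicit false

namespace Cfsg.Agent.H295.FourOutAbs

open Subgroup Cfsg.Agent.H79.OutAbs

/-- in a cyclic group two elements of order at most two are dependent -/
theorem cyclic_two {C : Type*} [Group C] [Finite C] (hC : IsCyclic C) {u v : C} (hu : u * u = 1)
    (hv : v * v = 1) : u = 1 ∨ v = 1 ∨ u * v = 1 := by
  classical
  by_contra hno
  push Not at hno
  obtain ⟨h1, h2, h3⟩ := hno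
  have huv : u ≠ v := by
    rintro rfl
    exact h3 hu
  have : Fintype C := Fintype.ofFinite C
  have h4 := IsCyclic.card_pow_eq_one_le (α := C) (n := 2) (by norm_num)
  have h5 : ({1, u, v} : Finset C) ⊆ Finset.univ.filter fun a : C => a ^ 2 = 1 := by
    intro w hw
    simp only [Finset.mem_insert, Finset.mem_singleton] at hw
    rw [Finset.mem_filter]
    refine ⟨Finset.mem_univ _, ?_⟩
    rcases hw with rfl | rfl | rfl
    · rw [one_pow]
    · rw [pow_two, hu]
    · rw [pow_two, hv]
  have h6 : ({1, u, v} : Finset C).card = 3 := by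
    rw [Finset.card_eq_three]
    exact ⟨1, u, v, h1.symm, h2.symm, huv, rfl⟩
  have h7 := Finset.card_le_card h5
  omega

/-- **Two involutions of `I Δ Φ`, `Φ` cyclic, `Δ` of odd exponent modulo `I`.** -/
theorem two {O : Type*} [Group O] [Finite O] {D F : Subgroup O} [hDn : D.Normal] (hF : IsCyclic F)
    {n : ℕ} (hn : Odd n) (hD : ∀ d ∈ D, d ^ n = 1) {x y : O} (hx : x ∈ D ⊔ F) (hy : y ∈ D ⊔ F)
    (hxx : x * x = 1) (hyy : y * y = 1) (hxy : x * y = y * x) : x = 1 ∨ y = 1 ∨ x * y = 1 := by
  have key : ∀ z : O, z * z = 1 → z ∈ D → z = 1 := by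
    intro z hz hzD
    obtain ⟨k, rfl⟩ := hn
    have h1 := hD z hzD
    rw [pow_succ, pow_mul, pow_two, hz, one_pow, one_mul] at h1
    exact h1
  let q := QuotientGroup.mk' D
  have hq : ∀ z ∈ D ⊔ F, q z ∈ F.map q := by
    intro z hz
    obtain ⟨d, hd, f, hf, rfl⟩ := mem_sup_of_normal_left.1 hz
    rw [map_mul]
    have h1 : q d = 1 := (QuotientGroup.eq_one_iff d).2 hd
    rw [h1, one_mul]
    exact mem_map_of_mem _ hf
  have hcyc : IsCyclic (F.map q) :=
    isCyclic_of_surjective (q.subgroupMap F) (q.subgroupMap_surjective F)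
  rcases cyclic_two hcyc (u := ⟨q x, hq x hx⟩) (v := ⟨q y, hq y hy⟩)
    (Subtype.ext (by change q x * q x = 1; rw [← map_mul, hxx, map_one]))
    (Subtype.ext (by change q y * q y = 1; rw [← map_mul, hyy, map_one])) with h | h | h
  · left
    have h1 : q x = 1 := congrArg Subtype.val h
    exact key x hxx ((QuotientGroup.eq_one_iff x).1 h1)
  · right; left
    have h1 : q y = 1 := congrArg Subtype.val h
    exact key y hyy ((QuotientGroup.eq_one_iff y).1 h1)
  · right; right
    have h1 : q x * q y = 1 := congrArg Subtype.val h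
    rw [← map_mul] at h1
    refine key _ ?_ ((QuotientGroup.eq_one_iff _).1 h1)
    calc x * y * (x * y) = x * y * (y * x) := by rw [← hxy]
      _ = x * (y * y) * x := by group
      _ = 1 := by rw [hyy, mul_one, hxx]

end Cfsg.Agent.H295.FourOutAbs
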