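import Cfsg.Agent.H295.LGRed

/-!
# A standard subgroup centralizing `O(G)`: lifting from `G / O(G)` (helper295)
-/

set_option autoImplicit false
set_option linter.unusedSectionVars false
set_option linter.unusedVariables false
set_option linter.style.haveILetI false

namespace Cfsg.Agent.H295.LG

open Subgroup Cfsg Equiv Equiv.Perm

universe u v

variable {G : Type u} [Group G] [Finite G] {A : Subgroup G}

/-- the situation modulo `O(G)` -/
structure Bar (A : Subgroup G) : Prop where
  std : IsStandardSubgroup A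
  rank : ¬ PRankLE 2 1 ↥(centralizer (A : Set G))
  cent : A ≤ centralizer (oddCore G : Set G)
  even : ¬ A ≤ oddCore G

/-- the image of `A` -/
abbrev Im (A : Subgroup G) : Subgroup (G ⧸ oddCore G) := A.map (QuotientGroup.mk' (oddCore G))

namespace Bar

theorem nontrivial (h : Bar A) : Nontrivial ↥(Im A) := by
  rw [Subgroup.nontrivial_iff_ne_bot]
  intro h1
  rw [Subgroup.map_eq_bot_iff, QuotientGroup.ker_mk'] at h1
  exact h.even h1

theorem equiv_center (h : Bar A) : Nonempty ((↥A ⧸ center ↥A) ≃* (↥(Im A) ⧸ center ↥(Im A))) := by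
  have := h.nontrivial
  exact CpQuot.Quo.nonempty_equiv h.std.1 ((QuotientGroup.mk' (oddCore G)).subgroupMap A)
    ((QuotientGroup.mk' (oddCore G)).subgroupMap_surjective A)

theorem card_dvd (h : Bar A) : Nat.card (↥A ⧸ center ↥A) ∣ Nat.card ↥(Im A) := by
  obtain ⟨e⟩ := h.equiv_center
  rw [Nat.card_congr e.toEquiv]
  exact Subgroup.card_quotient_dvd_card _

theorem card_center (h : Bar A) : Nat.card ↥(Im A) = Nat.card (↥A ⧸ center ↥A) * Nat.card ↥(center ↥(Im A)) := by
  obtain ⟨e⟩ := h.equiv_center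
  rw [Nat.card_congr e.toEquiv]
  exact Subgroup.card_eq_card_quotient_mul_card_subgroup _

theorem normal (h : Bar A) (hn : (Im A).Normal) : A.Normal := by
  rw [← normalizer_eq_top_iff]
  rw [eq_top_iff]
  intro g _
  apply H300.StdOdd.mem_normalizer_of_map h.std h.cent
  have := hn
  rw [normalizer_eq_top_iff.2 hn]
  trivial

/-- the kernel of `normalClosure A → normalClosure (Im A)` -/
abbrev K (A : Subgroup G) : Subgroup ↥(normalClosure (A : Set G)) := (oddCore G).subgroupOf (normalClosure (A : Set G))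

theorem K_normal : (K A).Normal := by
  have hYn : (oddCore G).Normal := Lib.Cores.pPrimeCore_normal 2
  exact hYn.subgroupOf _

theorem quot (h : Bar A) : letI := K_normal (A := A)
    Nonempty ((↥(normalClosure (A : Set G)) ⧸ K A) ≃* ↥(normalClosure ((Im A : Subgroup (G ⧸ oddCore G)) : Set (G ⧸ oddCore G)))) := by
  letI := K_normal (A := A)
  obtain ⟨e⟩ := quot_equiv (normalClosure (A : Set G))
  exact ⟨e.trans (MulEquiv.subgroupCongr map_nc)⟩

theorem odd_K : Odd (Nat.card ↥(K A)) := by
  have h1 : Nat.card ↥(K A) ∣ Nat.card ↥(oddCore G) := by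
    refine Subgroup.card_dvd_of_injective
      (((normalClosure (A : Set G)).subtype.comp (K A).subtype).codRestrict (oddCore G) (fun x => x.2)) ?_
    intro a b hab
    apply Subtype.ext
    apply Subtype.ext
    exact congrArg (fun z : oddCore G => (z : G)) hab
  exact (H300.StdOdd.odd_oddCore (G := G)).of_dvd_nat h1

theorem card_dvd_mult (h : Bar A) {n : ℕ} (hn : n ≠ 0) {Q : Type v} [Group Q] (hQ : HasCyclicSchurMultiplier Q n)
    (e : Nonempty (↥(normalClosure ((Im A : Subgroup (G ⧸ oddCore G)) : Set (G ⧸ oddCore G))) ≃* Q)) :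
    Nat.card ↥(K A) ∣ n := by
  letI := K_normal (A := A)
  obtain ⟨f⟩ := h.quot
  obtain ⟨e⟩ := e
  exact card_dvd_of_mult hn hQ (perfect_nc h.std.1.1) (K A) (nc_central h.cent) ⟨f.trans e⟩

/-- the kernel of `A → Im A` -/
abbrev KA (A : Subgroup G) : Subgroup ↥A := (oddCore G).subgroupOf A

theorem KA_normal : (KA A).Normal := by
  have hYn : (oddCore G).Normal := Lib.Cores.pPrimeCore_normal 2
  exact hYn.subgroupOf _

theorem quotA (h : Bar A) : letI := KA_normal (A := A)
    Nonempty ((↥A ⧸ KA A) ≃* ↥(Im A)) := by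
  letI := KA_normal (A := A)
  exact quot_equiv A

theorem KA_central (h : Bar A) : KA A ≤ center ↥A := by
  intro x hx
  rw [mem_subgroupOf] at hx
  rw [mem_center_iff]
  intro y
  apply Subtype.ext
  exact (mem_centralizer_iff.1 (h.cent y.2) x hx).symm

theorem card_KA_dvd : Nat.card ↥(KA A) ∣ Nat.card ↥(K A) := by
  have hle : A ≤ normalClosure (A : Set G) := subset_normalClosure
  refine Subgroup.card_dvd_of_injective
    (((Subgroup.inclusion hle).comp (KA A).subtype).codRestrict (K A) (fun x => x.2)) ?_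
  intro a b hab
  apply Subtype.ext
  apply Subtype.ext
  exact congrArg (fun z : K A => ((z : ↥(normalClosure (A : Set G))) : G)) hab

theorem equiv_of_bot (h : Bar A) (h1 : Nat.card ↥(K A) = 1) :
    Nonempty (↥(normalClosure (A : Set G)) ≃* ↥(normalClosure ((Im A : Subgroup (G ⧸ oddCore G)) : Set (G ⧸ oddCore G)))) ∧
      Nonempty (↥A ≃* ↥(Im A)) := by
  letI := K_normal (A := A)
  letI := KA_normal (A := A)
  have h2 : K A = ⊥ := Subgroup.eq_bot_of_card_eq _ h1
  have h3 : KA A = ⊥ := Subgroup.eq_bot_of_card_eq _ (Nat.dvd_one.1 (h1 ▸ card_KA_dvd))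
  obtain ⟨f⟩ := h.quot
  obtain ⟨g⟩ := h.quotA
  refine ⟨⟨?_⟩, ⟨?_⟩⟩
  · exact (QuotientGroup.quotientBot.symm.trans (QuotientGroup.quotientMulEquivOfEq h2.symm)).trans f
  · exact (QuotientGroup.quotientBot.symm.trans (QuotientGroup.quotientMulEquivOfEq h3.symm)).trans g

end Bar

end Cfsg.Agent.H295.LG
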