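import Mathlib
import Cfsg.Agent.SporadicA.FieldFour
import Cfsg.Agent.LThreeFour.Exists
import Cfsg.Agent.LThreeFour.Inv
import Cfsg.Agent.Lib.FieldFour
import Cfsg.Agent.CTwoTab.Exc
import Cfsg.Agent.ChevStructure.FieldMap
import Cfsg.Agent.S1055
import Cfsg.Agent.S1059

/-!
# Orders and field change for `L₃(4)`, `G₂(4)` (helper295)
-/

set_option autoImplicit false

namespace Cfsg.Agent.H295.LG

open Subgroup Cfsg Equiv Equiv.Perm

universe u v

/-! ### Orders -/

theorem ringEquiv {F : Type u} {K : Type v} [Field F] [Fintype F] [Field K] [Fintype K]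
    (hF : Fintype.card F = 4) (hK : Fintype.card K = 4) : Nonempty (F ≃+* K) :=
  ⟨FiniteField.ringEquivOfCardEq (hF.trans hK.symm)⟩

theorem psl_congr {F : Type u} {K : Type v} [Field F] [Fintype F] [Field K] [Fintype K]
    (hF : Fintype.card F = 4) (hK : Fintype.card K = 4) :
    Nonempty (Matrix.ProjectiveSpecialLinearGroup (Fin 3) F ≃* Matrix.ProjectiveSpecialLinearGroup (Fin 3) K) := by
  obtain ⟨e⟩ := ringEquiv hF hK
  exact ⟨SporadicA.FieldFour.pslCongr e⟩

theorem g2_congr {F : Type u} {K : Type v} [Field F] [Fintype F] [Field K] [Fintype K]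
    (hF : Fintype.card F = 4) (hK : Fintype.card K = 4) :
    Nonempty (↥(Lie.chevG2.group F) ≃* ↥(Lie.chevG2.group K)) := by
  obtain ⟨e⟩ := ringEquiv hF hK
  exact ⟨ChevStructure.FieldMap.groupEquivOfRingEquiv _ e⟩

theorem card_psl {F : Type u} [Field F] [Fintype F] (hF : Fintype.card F = 4) :
    Nat.card (Matrix.ProjectiveSpecialLinearGroup (Fin 3) F) = 20160 := by
  obtain ⟨e⟩ := psl_congr hF Lib.FieldFour.F4.card
  rw [Nat.card_congr e.toEquiv]
  exact CTwoTab.card_PSL_three _ Lib.FieldFour.F4.card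

theorem card_g2 {F : Type u} [Field F] [Fintype F] (hF : Fintype.card F = 4) :
    Nat.card ↥(Lie.chevG2.group F) = 251596800 := by
  rw [S1059.result hF]
  norm_num

theorem center_g2 {F : Type u} [Field F] [Fintype F] (hF : Fintype.card F = 4) :
    center ↥(Lie.chevG2.group F) = ⊥ := by
  classical
  have h1 : ∃ a : F, a ≠ 0 ∧ a ≠ 1 := by
    by_contra hcon
    push Not at hcon
    have h2 : Fintype.card F ≤ 2 := by
      rw [← Finset.card_univ]
      refine (Finset.card_le_card (fun a _ => ?_ : Finset.univ ⊆ ({0, 1} : Finset F))).trans Finset.card_le_two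
      by_cases h0 : a = 0
      · simp [h0]
      · simp [hcon a h0]
    omega
  obtain ⟨hs, hna⟩ := S1055.result h1
  rcases (inferInstance : (center ↥(Lie.chevG2.group F)).Normal).eq_bot_or_eq_top with h | h
  · exact h
  · exact absurd ⟨⟨fun a b => (mem_center_iff.1 (h ▸ mem_top a : a ∈ center _) b).symm⟩⟩ hna

def ia : alternatingGroup (Fin 8) := ⟨swap 0 1 * swap 2 3, by rw [mem_alternatingGroup]; decide +kernel⟩

def ib : alternatingGroup (Fin 8) := ⟨swap 0 1 * swap 2 3 * (swap 4 5 * swap 6 7), by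
  rw [mem_alternatingGroup]; decide +kernel⟩

/-- `A₈` is not `L₃(4)` -/
theorem not_l34 {F : Type*} [Field F] [Fintype F] (hF : Fintype.card F = 4)
    (e : alternatingGroup (Fin 8) ≃* Matrix.ProjectiveSpecialLinearGroup (Fin 3) F) : False := by
  obtain ⟨A⟩ := LThreeFour.exists_dat hF e
  obtain ⟨g, hg⟩ := A.invol_conj ia (by decide +kernel) (by decide +kernel)
  obtain ⟨h, hh⟩ := A.invol_conj ib (by decide +kernel) (by decide +kernel)
  have h1 : (g : Perm (Fin 8)) * (ia : Perm (Fin 8)) * (g : Perm (Fin 8))⁻¹ =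
      (h : Perm (Fin 8)) * (ib : Perm (Fin 8)) * (h : Perm (Fin 8))⁻¹ := congrArg Subtype.val (hg.trans hh.symm)
  have h2 := congrArg (fun p : Perm (Fin 8) => p.support.card) h1
  simp only [card_support_conj] at h2
  exact absurd h2 (by decide +kernel)

theorem alt_factorial {n : ℕ} (hn : 2 ≤ n) : 2 * Nat.card ↥(alternatingGroup (Fin n)) = n.factorial := by
  have hnt : Nontrivial (Fin n) := by
    rw [← Fintype.one_lt_card_iff_nontrivial, Fintype.card_fin]
    omega
  have h6 := two_mul_nat_card_alternatingGroup (α := Fin n)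
  rwa [Nat.card_perm, Nat.card_fin] at h6

theorem n_eq_eight {n : ℕ} (h : n.factorial = 40320) : n = 8 := by
  have h8 : (8 : ℕ).factorial = 40320 := by decide
  rcases lt_trichotomy n 8 with h1 | h1 | h1
  · have : n.factorial ≤ (7 : ℕ).factorial := Nat.factorial_le (by omega)
    have h7 : (7 : ℕ).factorial = 5040 := by decide
    omega
  · exact h1
  · have : (9 : ℕ).factorial ≤ n.factorial := Nat.factorial_le (by omega)
    have h9 : (9 : ℕ).factorial = 362880 := by decide
    omega

theorem n_ne {n : ℕ} (h : n.factorial = 503193600) : False := by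
  rcases le_or_gt n 12 with h1 | h1
  · have : n.factorial ≤ (12 : ℕ).factorial := Nat.factorial_le h1
    have h7 : (12 : ℕ).factorial = 479001600 := by decide
    omega
  · have : (13 : ℕ).factorial ≤ n.factorial := Nat.factorial_le (by omega)
    have h9 : (13 : ℕ).factorial = 6227020800 := by decide
    omega

/-- no `Q` of type `L₃(4)`, `G₂(4)` is alternating -/
theorem not_alt {Q : Type*} [Group Q] {F : Type*} [Field F] [Fintype F] (hF : Fintype.card F = 4)
    (h : Nonempty (Q ≃* Matrix.ProjectiveSpecialLinearGroup (Fin 3) F) ∨ Nonempty (Q ≃* ↥(Lie.chevG2.group F)))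
    {n : ℕ} (hn : 5 ≤ n) (e : Q ≃* ↥(alternatingGroup (Fin n))) : False := by
  have h1 := alt_factorial (n := n) (by omega)
  rw [← Nat.card_congr e.toEquiv] at h1
  rcases h with h | h
  · obtain ⟨f⟩ := h
    rw [Nat.card_congr f.toEquiv, card_psl hF] at h1
    obtain rfl := n_eq_eight h1.symm
    exact not_l34 hF (e.symm.trans f)
  · obtain ⟨f⟩ := h
    rw [Nat.card_congr f.toEquiv, card_g2 hF] at h1
    exact n_ne h1.symm

end Cfsg.Agent.H295.LG
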