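import Mathlib
import Cfsg.Prelude.Def_KGroupFacts
import Cfsg.Agent.H487.SchurMult
import Cfsg.Agent.H295.LGOrd
import Cfsg.Agent.LieClassical.SLGen
import Cfsg.Agent.S0242
import Cfsg.Agent.S2088

/-!
# The threefold cover of `L₃(4)` is `SL₃(4)` (helper295)
-/

set_option autoImplicit false

namespace Cfsg.Agent.H295.LG

open Subgroup Cfsg Function

universe u v w x

section Fib

variable {S : Type u} [Group S] {A : Type v} {B : Type w} [Group A] [Group B] (α : A →* S) (β : B →* S)

/-- the fibre product -/
def fib : Subgroup (A × B) where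
  carrier := {p | α p.1 = β p.2}
  mul_mem' {p q} hp hq := by
    change α (p.1 * q.1) = β (p.2 * q.2)
    rw [map_mul, map_mul, show α p.1 = β p.2 from hp, show α q.1 = β q.2 from hq]
  one_mem' := by
    change α 1 = β 1
    rw [map_one, map_one]
  inv_mem' {p} hp := by
    change α p.1⁻¹ = β p.2⁻¹
    rw [map_inv, map_inv, show α p.1 = β p.2 from hp]

theorem mem_fib {p : A × B} : p ∈ fib α β ↔ α p.1 = β p.2 := Iff.rfl

/-- the projection to `S` -/
def toS : fib α β →* S := α.comp ((MonoidHom.fst A B).comp (fib α β).subtype)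

def toA : fib α β →* A := (MonoidHom.fst A B).comp (fib α β).subtype

def toB : fib α β →* B := (MonoidHom.snd A B).comp (fib α β).subtype

theorem toS_eq (p : fib α β) : toS α β p = α (toA α β p) := rfl

theorem toS_eq' (p : fib α β) : toS α β p = β (toB α β p) := p.2

variable {α β}

theorem toA_surj (hβ : Surjective β) : Surjective (toA α β) := by
  intro a
  obtain ⟨b, hb⟩ := hβ (α a)
  exact ⟨⟨(a, b), hb.symm⟩, rfl⟩

theorem toB_surj (hα : Surjective α) : Surjective (toB α β) := by
  intro b
  obtain ⟨a, ha⟩ := hα (β b)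
  exact ⟨⟨(a, b), ha⟩, rfl⟩

theorem toS_surj (hα : Surjective α) (hβ : Surjective β) : Surjective (toS α β) := by
  intro s
  obtain ⟨a, ha⟩ := hα s
  obtain ⟨p, hp⟩ := toA_surj (α := α) hβ a
  exact ⟨p, by rw [toS_eq, hp, ha]⟩

theorem toS_central (cα : α.ker ≤ center A) (cβ : β.ker ≤ center B) : (toS α β).ker ≤ center (fib α β) := by
  intro p hp
  rw [MonoidHom.mem_ker] at hp
  have h1 : (p : A × B).1 ∈ center A := cα (by rw [MonoidHom.mem_ker]; exact hp)
  have h2 : (p : A × B).2 ∈ center B := cβ (by
    rw [MonoidHom.mem_ker]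
    rw [toS_eq'] at hp
    exact hp)
  rw [mem_center_iff]
  intro q
  apply Subtype.ext
  apply Prod.ext
  · exact mem_center_iff.1 h1 _
  · exact mem_center_iff.1 h2 _

theorem card_ker_dvd [Finite A] [Finite B] : Nat.card (toS α β).ker ∣ Nat.card α.ker * Nat.card β.ker := by
  rw [← Nat.card_prod]
  let f : (toS α β).ker →* α.ker × β.ker :=
    { toFun := fun p => (⟨((p : fib α β) : A × B).1, by
        have := p.2
        rw [MonoidHom.mem_ker] at this ⊢
        exact this⟩, ⟨((p : fib α β) : A × B).2, by
        have := p.2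
        rw [MonoidHom.mem_ker, toS_eq'] at this
        rw [MonoidHom.mem_ker]
        exact this⟩)
      map_one' := rfl
      map_mul' := fun _ _ => rfl }
  refine Subgroup.card_dvd_of_injective f ?_
  intro p q hpq
  apply Subtype.ext
  apply Subtype.ext
  apply Prod.ext
  · exact congrArg (fun z : α.ker × β.ker => (z.1 : A)) hpq
  · exact congrArg (fun z : α.ker × β.ker => (z.2 : B)) hpq

/-- **uniqueness of a cover of order `3`** when the 3-part of the multiplier has order at most `3` -/
theorem unique_cover [Finite S] {M : Type x} [CommGroup M] [Finite M] (h : HasSchurMultiplier S M)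
    (hM : ¬ 9 ∣ Nat.card M) [Finite A] [Finite B] (hA : _root_.commutator A = ⊤) (hB : _root_.commutator B = ⊤)
    (hα : Surjective α) (hβ : Surjective β) (cα : α.ker ≤ center A) (cβ : β.ker ≤ center B)
    (kα : Nat.card α.ker = 3) (kβ : Nat.card β.ker = 3) : Nonempty (A ≃* B) := by
  obtain ⟨f, hf⟩ := H487.HasSchurMultiplier.exists_surj h (toS_surj hα hβ) (toS_central cα cβ)
  set D : Subgroup (fib α β) := _root_.commutator (fib α β) with hD
  have h1 : Nat.card (H487.Mult (toS α β)) ∣ Nat.card M := Subgroup.card_dvd_of_surjective f hf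
  have h2 : Nat.card (H487.Mult (toS α β)) ∣ 9 := by
    refine (card_dvd_of_le inf_le_left).trans ?_
    have := card_ker_dvd (α := α) (β := β)
    rwa [kα, kβ] at this
  have h3 : Nat.card (H487.Mult (toS α β)) ≤ 3 := by
    have h9 : (9 : ℕ) = 3 ^ 2 := by norm_num
    rw [h9, Nat.dvd_prime_pow Nat.prime_three] at h2
    obtain ⟨k, hk, hk'⟩ := h2
    interval_cases k
    · rw [hk']; norm_num
    · rw [hk']; norm_num
    · exact absurd (h9 ▸ hk' ▸ h1) hM
  -- the order of `D`
  have hDS : Nat.card D ≤ 3 * Nat.card S := by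
    let g : D →* S := (toS α β).comp D.subtype
    have hk : Nat.card g.ker ≤ 3 := by
      refine le_trans (Nat.card_le_card_of_injective (fun p : g.ker => (⟨((p : D) : fib α β), ⟨p.2, (p : D).2⟩⟩ :
        H487.Mult (toS α β))) ?_) h3
      intro p q hpq
      apply Subtype.ext
      apply Subtype.ext
      exact congrArg (fun z : H487.Mult (toS α β) => (z : fib α β)) hpq
    have h4 : Nat.card D = Nat.card g.ker * Nat.card g.range := by
      rw [← Subgroup.index_ker, Subgroup.card_mul_index]
    have h5 : Nat.card g.range ≤ Nat.card S := Subgroup.card_le_card_group _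
    rw [h4]
    exact Nat.mul_le_mul hk h5
  have cardA : Nat.card A = 3 * Nat.card S := by
    rw [← Subgroup.card_mul_index α.ker, Subgroup.index_ker, MonoidHom.range_eq_top.2 hα, Subgroup.card_top, kα]
  have cardB : Nat.card B = 3 * Nat.card S := by
    rw [← Subgroup.card_mul_index β.ker, Subgroup.index_ker, MonoidHom.range_eq_top.2 hβ, Subgroup.card_top, kβ]
  have surjA : Surjective ((toA α β).comp D.subtype) := by
    rw [← MonoidHom.range_eq_top, MonoidHom.range_comp, range_subtype, hD, _root_.commutator_def, map_commutator,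
      ← MonoidHom.range_eq_map, MonoidHom.range_eq_top.2 (toA_surj hβ), ← _root_.commutator_def, hA]
  have surjB : Surjective ((toB α β).comp D.subtype) := by
    rw [← MonoidHom.range_eq_top, MonoidHom.range_comp, range_subtype, hD, _root_.commutator_def, map_commutator,
      ← MonoidHom.range_eq_map, MonoidHom.range_eq_top.2 (toB_surj hα), ← _root_.commutator_def, hB]
  have bijA : Bijective ((toA α β).comp D.subtype) :=
    (Nat.bijective_iff_surjective_and_card _).2 ⟨surjA,
      le_antisymm (by rw [cardA]; exact hDS) (Nat.card_le_card_of_surjective _ surjA)⟩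
  have bijB : Bijective ((toB α β).comp D.subtype) :=
    (Nat.bijective_iff_surjective_and_card _).2 ⟨surjB,
      le_antisymm (by rw [cardB]; exact hDS) (Nat.card_le_card_of_surjective _ surjB)⟩
  exact ⟨(MulEquiv.ofBijective _ bijA).symm.trans (MulEquiv.ofBijective _ bijB)⟩

end Fib

theorem card_sl {F : Type u} [Field F] [Fintype F] (hF : Fintype.card F = 4) :
    Nat.card (Matrix.SpecialLinearGroup (Fin 3) F) = 60480 := by
  have h := S0242.result (F := F) hF 3 (by norm_num)
  rw [Fin.prod_univ_three] at h
  norm_num at h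
  omega

/-- **quasisimple groups `A` with `A / N = L₃(4)`, `|N| ≤ 3` odd** -/
theorem psl_or_sl {A : Type u} [Group A] [Finite A] (hA : _root_.commutator A = ⊤) (N : Subgroup A) (hn : N.Normal)
    (hN : N ≤ center A) (h3 : Nat.card N = 1 ∨ Nat.card N = 3) {F : Type v} [Field F] [Fintype F]
    (hF : Fintype.card F = 4) (e : Nonempty ((A ⧸ N) ≃* Matrix.ProjectiveSpecialLinearGroup (Fin 3) F)) :
    Nonempty (A ≃* Matrix.ProjectiveSpecialLinearGroup (Fin 3) F) ∨
      Nonempty (A ≃* Matrix.SpecialLinearGroup (Fin 3) F) := by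
  obtain ⟨e⟩ := e
  rcases h3 with h1 | h3
  · left
    have h2 : N = ⊥ := Subgroup.eq_bot_of_card_eq _ h1
    exact ⟨(QuotientGroup.quotientBot.symm.trans (QuotientGroup.quotientMulEquivOfEq h2.symm)).trans e⟩
  · right
    let α : A →* Matrix.ProjectiveSpecialLinearGroup (Fin 3) F := e.toMonoidHom.comp (QuotientGroup.mk' N)
    let β : Matrix.SpecialLinearGroup (Fin 3) F →* Matrix.ProjectiveSpecialLinearGroup (Fin 3) F :=
      QuotientGroup.mk' (center (Matrix.SpecialLinearGroup (Fin 3) F))
    have hα : Surjective α := e.surjective.comp (QuotientGroup.mk'_surjective N)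
    have hβ : Surjective β := QuotientGroup.mk'_surjective _
    have kα : α.ker = N := by
      ext a
      rw [MonoidHom.mem_ker]
      change e (QuotientGroup.mk' N a) = 1 ↔ a ∈ N
      rw [map_eq_one_iff e e.injective]
      exact QuotientGroup.eq_one_iff a
    have kβ : β.ker = center (Matrix.SpecialLinearGroup (Fin 3) F) := QuotientGroup.ker_mk' _
    have cβ : Nat.card β.ker = 3 := by
      have h4 := Subgroup.card_mul_index β.ker
      rw [Subgroup.index_ker, MonoidHom.range_eq_top.2 hβ, Subgroup.card_top, card_psl hF, card_sl hF] at h4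
      omega
    have hfin : Finite (Matrix.ProjectiveSpecialLinearGroup (Fin 3) F) := Finite.of_surjective β hβ
    refine unique_cover (S2088.result hF) ?_ hA (LieClassical.SLGen.commutator_eq_top (by simp)) hα hβ
      (by rw [kα]; exact hN) (by rw [kβ]) (by rw [kα]; exact h3) cβ
    rw [Nat.card_congr Multiplicative.toAdd, Nat.card_prod, Nat.card_prod, Nat.card_zmod, Nat.card_zmod]
    norm_num

end Cfsg.Agent.H295.LG
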