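import Mathlib
import Cfsg.Agent.KFacts.He.RecL
import Cfsg.Agent.KFacts.He.Classes
import Cfsg.Agent.ONType.PslCard
import Cfsg.Agent.CpQuot.Quo

/-!
# Quasisimple subgroups `A` of the Held group, `A / Z(A) = L₃(4)`, `Z(A) ≠ 1`, centralizing an involution (helper295)
-/

set_option autoImplicit false

namespace Cfsg.Agent.H295.LG

open Subgroup Cfsg Cfsg.Spor.He
open Cfsg.Agent.KFacts.He.Lv Cfsg.Agent.KFacts.He.TwoACent Cfsg.Agent.KFacts.He.TwoAPlane Cfsg.Agent.KFacts.He.RecL
open Cfsg.Agent.ONType.Psl (PSL3)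
open scoped commutatorElement

theorem card_eq {B : Type*} [Group B] [Finite B] (hc : Nat.card (B ⧸ center B) = 20160) :
    Nat.card B = 20160 * Nat.card (center B) := by
  rw [Subgroup.card_eq_card_quotient_mul_card_subgroup (center B), hc]

theorem two_le {B : Type*} [Group B] [Finite B] (hZ : center B ≠ ⊥) : 2 ≤ Nat.card (center B) := by
  have : Nontrivial (center B) := (Subgroup.nontrivial_iff_ne_bot _).2 hZ
  have : 1 < Nat.card (center B) := Finite.one_lt_card_iff_nontrivial.2 this
  omega

theorem he_z {B : Subgroup Cfsg.Spor.He} (hc : Nat.card (B ⧸ center B) = 20160) (hZ : center B ≠ ⊥)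
    (hB : B ≤ centralizer {Cfsg.Agent.KFacts.He.Bound.z}) : False := by
  have h1 := card_eq hc
  have h2 := two_le hZ
  have h3 : Nat.card B ≤ 21504 := by
    rw [← Cfsg.Agent.KFacts.He.Classes.card_centralizer]
    exact Nat.le_of_dvd Nat.card_pos (card_dvd_of_le hB)
  omega

theorem he_a_le {B : Subgroup Cfsg.Spor.He} (hq : IsQuasisimple B) (hc : Nat.card (B ⧸ center B) = 20160)
    (hB : B ≤ centralizer {gn .a}) : B ≤ L := by
  have hcomm : ∀ b ∈ B, b * gn .a = gn .a * b := fun b hb => mem_centralizer_singleton_iff.1 (hB hb)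
  have hn : (L.subgroupOf B).Normal := by
    constructor
    intro n hn g
    rw [mem_subgroupOf] at hn ⊢
    exact norm (hcomm _ g.2) hn
  rcases Cfsg.Agent.Lib.ComponentSolvable.quasisimple_normal_cases hq hn with h | h
  · exact subgroupOf_eq_top.1 h
  · exfalso
    have h1 : Nat.card B ≤ 2 * Nat.card (L.subgroupOf B) := by
      rw [← Subgroup.card_mul_index (L.subgroupOf B), mul_comm]
      apply Nat.mul_le_mul_right
      by_contra hcon
      have hi : 2 < (L.subgroupOf B).index := by omega
      have hF : Finite (B ⧸ L.subgroupOf B) := inferInstance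
      rw [Subgroup.index] at hi
      have hF' := Fintype.ofFinite (B ⧸ L.subgroupOf B)
      rw [Nat.card_eq_fintype_card] at hi
      obtain ⟨x, y, w, hxy, hxw, hyw⟩ := Fintype.two_lt_card_iff.1 hi
      obtain ⟨x, rfl⟩ := QuotientGroup.mk_surjective x
      obtain ⟨y, rfl⟩ := QuotientGroup.mk_surjective y
      obtain ⟨w, rfl⟩ := QuotientGroup.mk_surjective w
      have key : ∀ p q : B, (p : B ⧸ L.subgroupOf B) ≠ q → (p : Cfsg.Spor.He)⁻¹ * q ∉ L := by
        intro p q h h'
        exact h (QuotientGroup.eq.2 (by rw [mem_subgroupOf]; exact h'))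
      have a1 := key x y hxy
      have a2 := key y w hyw
      have a3 := key x w hxw
      rcases two (c := (x : Cfsg.Spor.He)⁻¹ * y) (d := (y : Cfsg.Spor.He)⁻¹ * w)
        (hcomm _ (B.mul_mem (B.inv_mem x.2) y.2)) (hcomm _ (B.mul_mem (B.inv_mem y.2) w.2)) with h2 | h2 | h2
      · exact a1 h2
      · exact a2 h2
      · apply a3
        have : (x : Cfsg.Spor.He)⁻¹ * w = (x : Cfsg.Spor.He)⁻¹ * y * ((y : Cfsg.Spor.He)⁻¹ * w) := by group
        rw [this]; exact h2
    have h2 : Nat.card (L.subgroupOf B) ≤ Nat.card (center B) := Nat.le_of_dvd Nat.card_pos (card_dvd_of_le h)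
    have h3 := card_eq hc
    have h4 : 0 < Nat.card (center B) := Nat.card_pos
    omega

theorem he_a_eq {B : Subgroup Cfsg.Spor.He} (hq : IsQuasisimple B) (hc : Nat.card (B ⧸ center B) = 20160)
    (hB : B ≤ centralizer {gn .a}) : B = L := by
  have hle := he_a_le hq hc hB
  apply le_antisymm hle
  -- the image in `PSL₃(4)`
  have hcard : Nat.card ((B.subgroupOf L).map Th) = Nat.card PSL3 := by
    have h1 := card_eq hc
    have h2 : Nat.card (B.subgroupOf L) = Nat.card B := Nat.card_congr (subgroupOfEquivOfLe hle).toEquiv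
    have hk : Nat.card (Th.subgroupMap (B.subgroupOf L)).ker ≤ Nat.card (center B) := by
      let f : (Th.subgroupMap (B.subgroupOf L)).ker → center B := fun x =>
        ⟨⟨((x : B.subgroupOf L) : L), x.1.2⟩, by
          rw [mem_center_iff]
          intro y
          apply Subtype.ext
          have hx : ((x : B.subgroupOf L) : L) ∈ Th.ker := by
            rw [MonoidHom.mem_ker]
            exact congrArg Subtype.val (MonoidHom.mem_ker.1 x.2)
          rw [ker_Th, mem_subgroupOf] at hx
          exact mem_V.1 hx _ (hle y.2)⟩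
      refine Nat.card_le_card_of_injective f ?_
      intro x y hxy
      apply Subtype.ext
      apply Subtype.ext
      apply Subtype.ext
      exact congrArg (fun z : center B => ((z : B) : Cfsg.Spor.He)) hxy
    have h3 : Nat.card (B.subgroupOf L) =
        Nat.card ((B.subgroupOf L).map Th) * Nat.card (Th.subgroupMap (B.subgroupOf L)).ker := by
      rw [← Subgroup.card_mul_index (Th.subgroupMap (B.subgroupOf L)).ker, Subgroup.index_ker,
        MonoidHom.range_eq_top.2 (Th.subgroupMap_surjective (B.subgroupOf L)), mul_comm, Subgroup.card_top]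
    have h4 : Nat.card ((B.subgroupOf L).map Th) ≤ Nat.card PSL3 := Subgroup.card_le_card_group _
    have h5 : Nat.card PSL3 = 20160 := Cfsg.Agent.ONType.PslCard.card_PSL3
    have h6 : 0 < Nat.card (center B) := Nat.card_pos
    have h7 : 20160 * Nat.card (center B) ≤ Nat.card ((B.subgroupOf L).map Th) * Nat.card (center B) := by
      calc 20160 * Nat.card (center B) = Nat.card ((B.subgroupOf L).map Th) *
            Nat.card (Th.subgroupMap (B.subgroupOf L)).ker := by rw [← h3, h2, h1]
        _ ≤ _ := Nat.mul_le_mul_left _ hk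
    have h8 := Nat.le_of_mul_le_mul_right h7 h6
    omega
  have htop : (B.subgroupOf L).map Th = ⊤ := Subgroup.eq_top_of_card_eq _ hcard
  have hdec : ∀ l ∈ L, ∃ b ∈ B, ∃ x ∈ V, l = b * x := by
    intro l hl
    have h1 : Th ⟨l, hl⟩ ∈ (B.subgroupOf L).map Th := by rw [htop]; trivial
    obtain ⟨b, hb, hbl⟩ := h1
    refine ⟨b, hb, (b : Cfsg.Spor.He)⁻¹ * l, ?_, by group⟩
    have h2 : b⁻¹ * ⟨l, hl⟩ ∈ Th.ker := by
      rw [MonoidHom.mem_ker, map_mul, map_inv, hbl, inv_mul_cancel]
    rw [ker_Th, mem_subgroupOf] at h2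
    exact h2
  rw [← perf, commutator_le]
  intro l hl m hm
  obtain ⟨b, hb, x, hx, rfl⟩ := hdec l hl
  obtain ⟨c, hc', y, hy, rfl⟩ := hdec m hm
  have e1 : ∀ u ∈ L, u * x = x * u := fun u hu => mem_V.1 hx u hu
  have e2 : ∀ u ∈ L, u * y = y * u := fun u hu => mem_V.1 hy u hu
  have hbL := hle hb
  have hcL := hle hc'
  have hxL := V_le_L hx
  have hyL := V_le_L hy
  have : ⁅b * x, c * y⁆ = ⁅b, c⁆ := by
    have k1 : Commute x c := (e1 c hcL).symm
    have k2 : Commute x y := (e1 y hyL).symm
    have k3 : Commute x b := (e1 b hbL).symm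
    have k4 : Commute y b := (e2 b hbL).symm
    have k5 : Commute y c := (e2 c hcL).symm
    rw [commutatorElement_def, commutatorElement_def]
    calc b * x * (c * y) * (b * x)⁻¹ * (c * y)⁻¹
        = b * (x * c) * y * x⁻¹ * b⁻¹ * y⁻¹ * c⁻¹ := by group
      _ = b * c * (x * y) * x⁻¹ * b⁻¹ * y⁻¹ * c⁻¹ := by rw [k1.eq]; group
      _ = b * c * (y * b⁻¹) * y⁻¹ * c⁻¹ := by rw [k2.eq]; group
      _ = b * c * b⁻¹ * c⁻¹ := by rw [k4.inv_right.eq]; group
  rw [this, commutatorElement_def]
  exact B.mul_mem (B.mul_mem (B.mul_mem hb hc') (B.inv_mem hb)) (B.inv_mem hc')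

theorem klein_L : IsKleinFour (center L) where
  card_four := card_center_L
  exponent_two := by
    have h1 : Monoid.exponent (center L) ∣ 2 := by
      rw [Monoid.exponent_dvd_iff_forall_pow_eq_one]
      intro x
      apply Subtype.ext
      rw [pow_two]
      exact center_sq x.2
    rcases (Nat.dvd_prime Nat.prime_two).1 h1 with h2 | h2
    · exfalso
      have h2 := Monoid.exp_eq_one_iff.1 h2
      have h3 := card_center_L
      rw [Nat.card_of_subsingleton (1 : center L)] at h3
      norm_num at h3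
    · exact h2

theorem klein_congr {B C : Type*} [Group B] [Group C] (e : B ≃* C) (h : IsKleinFour B) : IsKleinFour C where
  card_four := by rw [← Nat.card_congr e.toEquiv]; exact h.card_four
  exponent_two := by rw [← Monoid.exponent_eq_of_mulEquiv e]; exact h.exponent_two

/-- **quasisimple subgroups of the Held group of type `L₃(4)` with nontrivial centre, centralizing an involution** -/
theorem he_klein {X : Type*} [Group X] (hX : Spor.IsoHe X) {A : Subgroup X} (hq : IsQuasisimple A)
    (hc : Nat.card (A ⧸ center A) = 20160) (hZ : center A ≠ ⊥) {w : X} (hw : w * w = 1) (hw1 : w ≠ 1)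
    (hA : A ≤ centralizer {w}) : IsKleinFour (center A) := by
  obtain ⟨f⟩ := hX
  have hcls := Cfsg.Agent.KFacts.He.Classes.two_classes_a (t := f w) (by rw [← map_mul, hw, map_one])
    (fun h => hw1 (f.injective (h.trans (map_one f).symm)))
  have key : ∀ (g u : Cfsg.Spor.He), g * u * g⁻¹ = f w → ∃ B : Subgroup Cfsg.Spor.He, Nonempty (A ≃* B) ∧
      B ≤ centralizer {u} := by
    intro g u hgu
    let F : X ≃* Cfsg.Spor.He := f.trans (MulAut.conj g⁻¹)
    refine ⟨A.map F.toMonoidHom, ⟨A.equivMapOfInjective F.toMonoidHom F.injective⟩, ?_⟩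
    rintro _ ⟨a, ha, rfl⟩
    have h1 : a * w = w * a := mem_centralizer_singleton_iff.1 (hA ha)
    have h2 : F w = u := by
      change g⁻¹ * f w * g⁻¹⁻¹ = u
      rw [← hgu]; group
    rw [mem_centralizer_singleton_iff]
    change F a * u = u * F a
    rw [← h2, ← map_mul, ← map_mul, h1]
  have tr : ∀ B : Subgroup Cfsg.Spor.He, (A ≃* B) → IsQuasisimple B ∧ Nat.card (B ⧸ center B) = 20160 ∧
      center B ≠ ⊥ ∧ Nonempty (center B ≃* center A) := by
    intro B e
    have hcm : (center A).map e.toMonoidHom = center B := by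
      ext x
      rw [mem_map, mem_center_iff]
      constructor
      · rintro ⟨a, ha, rfl⟩ y
        obtain ⟨y, rfl⟩ := e.surjective y
        change e y * e a = e a * e y
        rw [← map_mul, ← map_mul, mem_center_iff.1 ha y]
      · intro h
        refine ⟨e.symm x, ?_, e.apply_symm_apply x⟩
        rw [mem_center_iff]
        intro y
        apply e.injective
        rw [map_mul, map_mul, e.apply_symm_apply]
        exact h (e y)
    have ec : center B ≃* center A :=
      ((center A).equivMapOfInjective e.toMonoidHom e.injective |>.trans (MulEquiv.subgroupCongr hcm)).symm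
    have hnt : Nontrivial A := by
      rw [Subgroup.nontrivial_iff_ne_bot]
      rintro rfl
      apply hZ
      exact Subgroup.eq_bot_of_subsingleton _
    have : Nontrivial B := e.symm.toEquiv.nontrivial
    obtain ⟨eq⟩ := CpQuot.Quo.nonempty_equiv hq e.toMonoidHom e.surjective
    refine ⟨CpQuot.Quo.quasisimple hq e.toMonoidHom e.surjective, ?_, ?_, ⟨ec⟩⟩
    · rw [← Nat.card_congr eq.toEquiv, hc]
    · intro h
      apply hZ
      have hs : Subsingleton (center B) := by rw [h]; infer_instance
      have : Subsingleton (center A) := ec.symm.toEquiv.subsingleton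
      exact Subgroup.eq_bot_of_subsingleton _
  rcases hcls with ⟨g, hg⟩ | ⟨g, hg⟩
  · obtain ⟨B, ⟨e⟩, hB⟩ := key g _ hg
    obtain ⟨h1, h2, h3, -⟩ := tr B e
    exact (he_z h2 h3 hB).elim
  · obtain ⟨B, ⟨e⟩, hB⟩ := key g _ hg
    obtain ⟨h1, h2, h3, ⟨e4⟩⟩ := tr B e
    obtain rfl := he_a_eq h1 h2 hB
    exact klein_congr e4 klein_L

end Cfsg.Agent.H295.LG
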